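import Cfsg.Agent.Characters.GaloisBasic
import Cfsg.Agent.Characters.EquivOfChar

/-!
# S4577, parity lemma: the determinant descends (helper162)

`K` a field with an embedding into `ℂ`, `Λ` a `K`-algebra, `R i : Λ → M_(n i)(ℂ)` algebra homomorphisms, each isomorphic to
its conjugates under `Aut(ℂ/K)`, `e` an idempotent of `Λ`, `m i` the trace of `R i e`, `a` a family of `∑ (m i)²` elements of
`e Λ e`.  Then `det (∑_i w i tr (R i (a j * a l)))_(j,l) = ± δ² ∏ (w i)^((m i)²)` for all weights `w`, with one `δ ∈ K`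
(`core`, `core_mem`).  `exists_det` : the group algebra of a finite group and characters with values in `K`.
-/

set_option autoImplicit false

open Matrix Cfsg
open scoped Kronecker

namespace Cfsg.Agent.H162.KS

open Cfsg.Agent.Characters

/-- an algebraic number fixed by `Aut(ℂ/K)` is in `K` -/
theorem mem_of_fixed {K : Type*} [Field K] [Algebra K ℂ] {z : ℂ} (hz : IsAlgebraic K z)
    (h : ∀ τ : ℂ ≃ₐ[K] ℂ, τ z = z) : ∃ k : K, algebraMap K ℂ k = z := by
  have : CharZero K := (algebraMap K ℂ).charZero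
  let L := algebraicClosure K ℂ
  have hzL : z ∈ L := mem_algebraicClosure_iff.2 hz
  have : IsAlgClosure K L := algebraicClosure.isAlgClosure K ℂ
  have : Normal K L := IsAlgClosure.normal K L
  have : IsGalois K L := ⟨⟩
  have h1 : (⟨z, hzL⟩ : L) ∈ (⊥ : IntermediateField K L) := by
    rw [InfiniteGalois.mem_bot_iff_fixed]
    intro f
    obtain ⟨τ, hτ⟩ := GaloisBasic.exists_ringEquiv_extend (K := L) f.toRingEquiv
    apply (algebraMap L ℂ).injective
    have h2 := hτ ⟨z, hzL⟩
    have h4 : ∀ k : K, τ (algebraMap K ℂ k) = algebraMap K ℂ k := by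
      intro k
      have h5 := hτ (algebraMap K L k)
      rw [← IsScalarTower.algebraMap_apply] at h5
      rw [h5]
      change algebraMap L ℂ (f (algebraMap K L k)) = _
      rw [AlgEquiv.commutes, ← IsScalarTower.algebraMap_apply]
    have h3 := h (AlgEquiv.ofRingEquiv (f := τ) h4)
    exact h2.symm.trans h3
  obtain ⟨q, hq⟩ := IntermediateField.mem_bot.1 h1
  refine ⟨q, ?_⟩
  have := congrArg (algebraMap L ℂ) hq
  rw [← IsScalarTower.algebraMap_apply] at this
  exact this

/-- an idempotent matrix of trace `m` is `B * C` with `C * B = 1_m` -/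
theorem exists_factor {n m : ℕ} (E : Matrix (Fin n) (Fin n) ℂ) (hE : E * E = E) (hm : E.trace = m) :
    ∃ (B : Matrix (Fin n) (Fin m) ℂ) (C : Matrix (Fin m) (Fin n) ℂ), C * B = 1 ∧ B * C = E := by
  have key : ∃ (m' : ℕ) (B : Matrix (Fin n) (Fin m') ℂ) (C : Matrix (Fin m') (Fin n) ℂ), C * B = 1 ∧ B * C = E := by
    let f : (Fin n → ℂ) →ₗ[ℂ] (Fin n → ℂ) := toLin' E
    let b := Module.finBasis ℂ (LinearMap.range f)
    refine ⟨_, LinearMap.toMatrix b (Pi.basisFun ℂ (Fin n)) (LinearMap.range f).subtype,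
      LinearMap.toMatrix (Pi.basisFun ℂ (Fin n)) b f.rangeRestrict, ?_, ?_⟩
    · rw [← LinearMap.toMatrix_comp]
      have h1 : f.rangeRestrict ∘ₗ (LinearMap.range f).subtype = LinearMap.id := by
        apply LinearMap.ext
        rintro ⟨_, v, rfl⟩
        apply Subtype.ext
        change f (f v) = f v
        change toLin' E (toLin' E v) = toLin' E v
        rw [← LinearMap.comp_apply, ← toLin'_mul, hE]
      rw [h1, LinearMap.toMatrix_id]
    · rw [← LinearMap.toMatrix_comp]
      have h1 : (LinearMap.range f).subtype ∘ₗ f.rangeRestrict = f := rfl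
      rw [h1]
      exact LinearMap.toMatrix'_toLin' E
  obtain ⟨m', B, C, h1, h2⟩ := key
  have h3 : E.trace = m' := by
    rw [← h2, trace_mul_comm, h1, trace_one, Fintype.card_fin]
  have h4 : m' = m := by
    rw [hm] at h3
    exact_mod_cast h3.symm
  subst h4
  exact ⟨B, C, h1, h2⟩

/-- the determinant of a block diagonal matrix -/
theorem det_bd {R : Type*} [CommRing R] {ι : Type*} [Fintype ι] [DecidableEq ι] {n : ι → Type*} [∀ i, Fintype (n i)]
    [∀ i, DecidableEq (n i)] (M : ∀ i, Matrix (n i) (n i) R) : (blockDiagonal' M).det = ∏ i, (M i).det := by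
  classical
  let _ : LinearOrder ι := LinearOrder.lift' (Fintype.equivFin ι) (Fintype.equivFin ι).injective
  have h1 : BlockTriangular (blockDiagonal' M) (Sigma.fst : (Σ i, n i) → ι) := by
    rintro ⟨i, x⟩ ⟨j, y⟩ hij
    exact blockDiagonal'_apply_ne M x y hij.ne'
  have h2 := h1.det_fintype
  refine Eq.trans ?_ (h2.trans (Finset.prod_congr rfl fun i _ => ?_))
  · congr!
  · rw [← det_submatrix_equiv_self (Equiv.sigmaSubtype i).symm]
    congr 1
    ext x y
    exact blockDiagonal'_apply_eq M i x y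

section Core

variable {K : Type*} [Field K] [Algebra K ℂ] {Λ : Type*} [Ring Λ] [Algebra K Λ]

/-- `R` is isomorphic to its conjugates under `Aut(ℂ/K)` -/
def Stable {n : ℕ} (R : Λ →ₐ[K] Matrix (Fin n) (Fin n) ℂ) : Prop :=
  ∀ τ : ℂ ≃ₐ[K] ℂ, ∃ P Q : Matrix (Fin n) (Fin n) ℂ, P * Q = 1 ∧ Q * P = 1 ∧ ∀ x, (R x).map τ = P * R x * Q

/-- the block of `e Λ e` -/
theorem exists_block {n : ℕ} (R : Λ →ₐ[K] Matrix (Fin n) (Fin n) ℂ) (hR : Stable R) {e : Λ} (he : e * e = e) {m : ℕ}
    (hm : (R e).trace = m) : ∃ φ : Λ → Matrix (Fin m) (Fin m) ℂ,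
      (∀ x y, x * e = x → (φ (x * y)) = φ x * φ y) ∧ (∀ x, x * e = x → (φ x).trace = (R x).trace) ∧
      ∀ τ : ℂ ≃ₐ[K] ℂ, ∃ h h' : Matrix (Fin m) (Fin m) ℂ, h * h' = 1 ∧
        ∀ x, e * x = x → x * e = x → (φ x).map τ = h * φ x * h' := by
  obtain ⟨B, C, hCB, hBC⟩ := exists_factor (R e) (by rw [← map_mul, he]) hm
  refine ⟨fun x => C * R x * B, fun x y hx => ?_, fun x hx => ?_, fun τ => ?_⟩
  · change C * R (x * y) * B = C * R x * B * (C * R y * B)
    calc C * R (x * y) * B = C * (R x * R e * R y) * B := by rw [← map_mul, hx, map_mul]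
      _ = _ := by
        rw [← hBC]
        simp only [Matrix.mul_assoc]
  · change (C * R x * B).trace = _
    rw [Matrix.mul_assoc, trace_mul_comm, Matrix.mul_assoc, hBC, ← map_mul, hx]
  · obtain ⟨P, Q, hPQ, hQP, hτ⟩ := hR τ
    have hmul : ∀ {a b c : ℕ} (X : Matrix (Fin a) (Fin b) ℂ) (Y : Matrix (Fin b) (Fin c) ℂ),
        (X * Y).map τ = X.map τ * Y.map τ := fun X Y => Matrix.map_mul (f := (τ : ℂ →+* ℂ))
    refine ⟨C.map τ * P * B, C * Q * B.map τ, ?_, fun x hx hx' => ?_⟩
    · have h1 : P * R e * Q = B.map τ * C.map τ := by rw [← hτ, ← hBC, hmul]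
      have h2 : C.map τ * B.map τ = 1 := by
        rw [← hmul, hCB]
        exact Matrix.map_one τ (map_zero τ) (map_one τ)
      calc C.map τ * P * B * (C * Q * B.map τ) = C.map τ * (P * (B * C) * Q) * B.map τ := by
            simp only [Matrix.mul_assoc]
        _ = (C.map τ * B.map τ) * (C.map τ * B.map τ) := by
            rw [hBC, h1]
            simp only [Matrix.mul_assoc]
        _ = 1 := by rw [h2, Matrix.mul_one]
    · change (C * R x * B).map τ = _
      have h3 : R x = B * C * R x * (B * C) := by rw [hBC, ← map_mul, ← map_mul, hx, hx']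
      calc (C * R x * B).map τ = C.map τ * (P * R x * Q) * B.map τ := by rw [hmul, hmul, hτ]
        _ = C.map τ * (P * (B * C * R x * (B * C)) * Q) * B.map τ := by rw [← h3]
        _ = _ := by simp only [Matrix.mul_assoc]

/-- **the core** -/
theorem core {ι : Type*} [Fintype ι] [DecidableEq ι] {n : ι → ℕ} (R : ∀ i, Λ →ₐ[K] Matrix (Fin (n i)) (Fin (n i)) ℂ)
    (hR : ∀ i, Stable (R i)) {e : Λ} (he : e * e = e) {m : ι → ℕ} (hm : ∀ i, (R i e).trace = m i)
    (a : (Σ i, Fin (m i) × Fin (m i)) → Λ) (ha : ∀ j, e * a j = a j) (ha' : ∀ j, a j * e = a j) :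
    ∃ z : ℂ, (∀ τ : ℂ ≃ₐ[K] ℂ, τ z = z) ∧ ∃ s : ℤˣ, ∀ w : ι → ℂ,
      (Matrix.of fun j l => ∑ i, w i * (R i (a j * a l)).trace).det = (s : ℤ) * z ^ 2 * ∏ i, w i ^ (m i ^ 2) := by
  classical
  choose φ hφ1 hφ2 hφ3 using fun i => exists_block (R i) (hR i) he (hm i)
  let P : Matrix (Σ i, Fin (m i) × Fin (m i)) (Σ i, Fin (m i) × Fin (m i)) ℂ := fun j t => φ t.1 (a j) t.2.1 t.2.2
  let σ : Equiv.Perm (Σ i, Fin (m i) × Fin (m i)) := Equiv.sigmaCongrRight fun i => Equiv.prodComm _ _
  refine ⟨P.det, fun τ => ?_, Equiv.Perm.sign σ, fun w => ?_⟩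
  · choose h h' hh hτ using fun i => hφ3 i τ
    have h1 : P.map τ = P * blockDiagonal' (fun i => (h i)ᵀ ⊗ₖ (h' i)) := by
      ext j ⟨i, r, s⟩
      rw [mul_apply, Fintype.sum_sigma, Finset.sum_eq_single i]
      · change τ (φ i (a j) r s) = _
        have h2 := congrFun (congrFun (hτ i (a j) (ha j) (ha' j)) r) s
        rw [Matrix.map_apply] at h2
        rw [h2, Fintype.sum_prod_type, mul_apply]
        simp only [mul_apply, Finset.sum_mul]
        rw [Finset.sum_comm]
        refine Finset.sum_congr rfl fun u _ => Finset.sum_congr rfl fun v _ => ?_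
        rw [blockDiagonal'_apply_eq, kroneckerMap_apply, transpose_apply]
        change _ = φ i (a j) u v * _
        ring
      · intro i' _ hne
        refine Finset.sum_eq_zero fun x _ => ?_
        rw [blockDiagonal'_apply_ne _ _ _ hne, mul_zero]
      · exact fun h0 => absurd (Finset.mem_univ i) h0
    have h2 : τ P.det = (P.map τ).det := by
      have := RingHom.map_det (τ : ℂ →+* ℂ) P
      exact this
    rw [h2, h1, det_mul, det_bd, Finset.prod_eq_one, mul_one]
    intro i _
    rw [det_kronecker, det_transpose, ← mul_pow, ← det_mul, hh, det_one, one_pow]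
  · have h1 : (Matrix.of fun j l => ∑ i, w i * (R i (a j * a l)).trace) =
        (P * diagonal fun t => w t.1) * (P.submatrix id σ)ᵀ := by
      ext j l
      rw [of_apply, mul_apply, Fintype.sum_sigma]
      refine Finset.sum_congr rfl fun i _ => ?_
      rw [← hφ2 i (a j * a l) (by rw [mul_assoc, ha']), hφ1 i (a j) (a l) (ha' j), trace, Finset.mul_sum,
        Fintype.sum_prod_type]
      refine Finset.sum_congr rfl fun r _ => ?_
      rw [diag_apply, mul_apply, Finset.mul_sum]
      refine Finset.sum_congr rfl fun s _ => ?_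
      rw [mul_diagonal, transpose_apply, submatrix_apply]
      change _ = φ i (a j) r s * w i * φ i (a l) s r
      ring
    have h2 : (P.submatrix id σ).det = Equiv.Perm.sign σ * P.det := det_permute' σ P
    have h3 : (∏ t : (Σ i, Fin (m i) × Fin (m i)), w t.1) = ∏ i, w i ^ (m i ^ 2) := by
      rw [Fintype.prod_sigma]
      refine Finset.prod_congr rfl fun i _ => ?_
      change ∏ _y : Fin (m i) × Fin (m i), w i = _
      rw [Finset.prod_const, Finset.card_univ, Fintype.card_prod, Fintype.card_fin, sq]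
    rw [h1, det_mul, det_mul, det_diagonal, det_transpose, h2, h3]
    ring

/-- the core with `δ ∈ K` -/
theorem core_mem {ι : Type*} [Fintype ι] [DecidableEq ι] {n : ι → ℕ}
    (R : ∀ i, Λ →ₐ[K] Matrix (Fin (n i)) (Fin (n i)) ℂ)
    (hR : ∀ i, Stable (R i)) (hval : ∀ i x, ∃ k : K, algebraMap K ℂ k = (R i x).trace) {e : Λ} (he : e * e = e)
    {m : ι → ℕ} (hm : ∀ i, (R i e).trace = m i) {N : Type*} [Fintype N] [DecidableEq N]
    (hN : Fintype.card N = ∑ i, m i ^ 2) (a : N → Λ) (ha : ∀ j, e * a j = a j) (ha' : ∀ j, a j * e = a j) :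
    ∃ δ : K, ∃ s : ℤˣ, ∀ w : ι → ℂ, (Matrix.of fun j l => ∑ i, w i * (R i (a j * a l)).trace).det =
      (s : ℤ) * algebraMap K ℂ δ ^ 2 * ∏ i, w i ^ (m i ^ 2) := by
  have h0 : Fintype.card (Σ i, Fin (m i) × Fin (m i)) = Fintype.card N := by
    rw [hN, Fintype.card_sigma]
    refine Finset.sum_congr rfl fun i _ => ?_
    rw [Fintype.card_prod, Fintype.card_fin, sq]
  let ε := Fintype.equivOfCardEq h0
  obtain ⟨z, hz, s, hs⟩ := core R hR he hm (fun t => a (ε t)) (fun t => ha _) (fun t => ha' _)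
  have hs' : ∀ w : ι → ℂ, (Matrix.of fun j l => ∑ i, w i * (R i (a j * a l)).trace).det =
      (s : ℤ) * z ^ 2 * ∏ i, w i ^ (m i ^ 2) := by
    intro w
    rw [← hs w, ← det_submatrix_equiv_self ε]
    rfl
  choose v hv using hval
  have h1 := hs' fun _ => 1
  simp only [one_mul, one_pow, Finset.prod_const_one, mul_one] at h1
  have h2 : (Matrix.of fun j l => ∑ i, (R i (a j * a l)).trace).det =
      algebraMap K ℂ (Matrix.of fun j l => ∑ i, v i (a j * a l)).det := by
    rw [RingHom.map_det]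
    congr 1
    ext j l
    change _ = algebraMap K ℂ (∑ i, v i (a j * a l))
    rw [map_sum, of_apply]
    exact Finset.sum_congr rfl fun i _ => (hv i _).symm
  rw [h2] at h1
  have h3 : z ^ 2 = algebraMap K ℂ ((s : ℤ) * (Matrix.of fun j l => ∑ i, v i (a j * a l)).det) := by
    rw [map_mul, h1, map_intCast, ← mul_assoc]
    have h4 : ((s : ℤ) : ℂ) * ((s : ℤ) : ℂ) = 1 := by
      rw [← Int.cast_mul, ← Units.val_mul, Int.units_mul_self, Units.val_one, Int.cast_one]
    rw [h4, one_mul]
  have h5 : IsAlgebraic K z := by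
    refine ⟨Polynomial.X ^ 2 - Polynomial.C ((s : ℤ) * (Matrix.of fun j l => ∑ i, v i (a j * a l)).det),
      Polynomial.X_pow_sub_C_ne_zero two_pos _, ?_⟩
    rw [map_sub, map_pow, Polynomial.aeval_X, Polynomial.aeval_C, ← h3, sub_self]
  obtain ⟨δ, hδ⟩ := mem_of_fixed h5 hz
  refine ⟨δ, s, fun w => ?_⟩
  rw [hδ]
  exact hs' w

end Core

/-! ### the group algebra -/

section Group

variable {K : Type*} [Field K] [Algebra K ℂ] {G : Type*} [Group G] [Fintype G]

/-- the linear extension of a function on `G` to the group algebra -/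
noncomputable def ev (χ : G → ℂ) : MonoidAlgebra K G →ₗ[K] ℂ where
  toFun x := ∑ g, algebraMap K ℂ (x.coeff g) * χ g
  map_add' x y := by
    rw [← Finset.sum_add_distrib]
    refine Finset.sum_congr rfl fun g _ => ?_
    rw [MonoidAlgebra.coeff_add, Finsupp.add_apply, map_add, add_mul]
  map_smul' c x := by
    rw [RingHom.id_apply, Finset.smul_sum]
    refine Finset.sum_congr rfl fun g _ => ?_
    rw [MonoidAlgebra.coeff_smul, Finsupp.smul_apply, smul_eq_mul, map_mul, Algebra.smul_def c (_ : ℂ), mul_assoc]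

theorem ev_apply (χ : G → ℂ) (x : MonoidAlgebra K G) : ev χ x = ∑ g, algebraMap K ℂ (x.coeff g) * χ g := rfl

theorem ev_single [DecidableEq G] (χ : G → ℂ) (g : G) (c : K) :
    ev χ (MonoidAlgebra.single g c) = algebraMap K ℂ c * χ g := by
  rw [ev_apply, Finset.sum_eq_single g]
  · rw [MonoidAlgebra.coeff_single, Finsupp.single_eq_same]
  · intro h _ hne
    rw [MonoidAlgebra.coeff_single, Finsupp.single_eq_of_ne hne, map_zero, zero_mul]
  · exact fun h => absurd (Finset.mem_univ g) h

/-- the matrix representation of the group algebra -/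
noncomputable def rep (K : Type*) [Field K] [Algebra K ℂ] {n : ℕ} (ρ : Representation ℂ G (Fin n → ℂ)) :
    MonoidAlgebra K G →ₐ[K] Matrix (Fin n) (Fin n) ℂ :=
  MonoidAlgebra.lift K (Matrix (Fin n) (Fin n) ℂ) G
    { toFun := fun g => LinearMap.toMatrix' (ρ g)
      map_one' := by rw [map_one]; exact LinearMap.toMatrix'_one
      map_mul' := fun g h => by rw [map_mul]; exact LinearMap.toMatrix'_mul _ _ }

omit [Fintype G] in
theorem rep_single {n : ℕ} (ρ : Representation ℂ G (Fin n → ℂ)) (g : G) (c : K) :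
    rep K ρ (MonoidAlgebra.single g c) = c • LinearMap.toMatrix' (ρ g) := MonoidAlgebra.lift_single _ _ _

theorem trace_rep {n : ℕ} (ρ : Representation ℂ G (Fin n → ℂ)) (x : MonoidAlgebra K G) :
    (rep K ρ x).trace = ev ρ.character x := by
  classical
  induction x using MonoidAlgebra.induction_linear with
  | zero => rw [map_zero, map_zero, trace_zero]
  | add x y hx hy => rw [map_add, map_add, trace_add, hx, hy]
  | single g c =>
    rw [rep_single, ev_single, trace_smul, Algebra.smul_def]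
    congr 1
    change _ = LinearMap.trace ℂ _ (ρ g)
    conv_rhs => rw [← Matrix.toLin'_toMatrix' (ρ g), Matrix.trace_toLin'_eq]

theorem stable_rep {n : ℕ} (ρ : Representation ℂ G (Fin n → ℂ))
    (hval : ∀ g, ∃ k : K, algebraMap K ℂ k = ρ.character g) : Stable (rep K ρ) := by
  intro τ
  have h1 : (GaloisBasic.twist (τ : ℂ ≃+* ℂ) ρ).character = ρ.character := by
    funext g
    rw [GaloisBasic.twist_character]
    obtain ⟨k, hk⟩ := hval g
    rw [← hk]
    exact τ.commutes k
  obtain ⟨f⟩ := EquivOfChar.nonempty_equiv_of_character_eq ρ (GaloisBasic.twist (τ : ℂ ≃+* ℂ) ρ) h1.symm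
  have h2 : ∀ g, (LinearMap.toMatrix' (ρ g)).map τ * LinearMap.toMatrix' f.toLinearEquiv.toLinearMap =
      LinearMap.toMatrix' f.toLinearEquiv.toLinearMap * LinearMap.toMatrix' (ρ g) := by
    intro g
    have h3 : (GaloisBasic.twist (τ : ℂ ≃+* ℂ) ρ g) ∘ₗ f.toLinearEquiv.toLinearMap =
        f.toLinearEquiv.toLinearMap ∘ₗ ρ g := by
      apply LinearMap.ext
      intro v
      exact (f.toIntertwiningMap.isIntertwining _ _ g v).symm
    have h4 := congrArg LinearMap.toMatrix' h3
    rw [LinearMap.toMatrix'_comp, LinearMap.toMatrix'_comp] at h4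
    rw [← h4]
    congr 1
    exact (LinearMap.toMatrix'_toLin' _).symm
  have hPQ : LinearMap.toMatrix' f.toLinearEquiv.toLinearMap * LinearMap.toMatrix' f.toLinearEquiv.symm.toLinearMap = 1 := by
    rw [← LinearMap.toMatrix'_comp, LinearEquiv.comp_symm]
    exact LinearMap.toMatrix'_id
  have hQP : LinearMap.toMatrix' f.toLinearEquiv.symm.toLinearMap * LinearMap.toMatrix' f.toLinearEquiv.toLinearMap = 1 := by
    rw [← LinearMap.toMatrix'_comp, LinearEquiv.symm_comp]
    exact LinearMap.toMatrix'_id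
  refine ⟨_, _, hPQ, hQP, fun x => ?_⟩
  induction x using MonoidAlgebra.induction_linear with
  | zero => rw [map_zero, Matrix.mul_zero, Matrix.zero_mul]; exact Matrix.map_zero _ (map_zero τ)
  | add x y hx hy =>
    rw [map_add, Matrix.mul_add, Matrix.add_mul, ← hx, ← hy]
    exact Matrix.map_add τ (map_add τ) _ _
  | single g c =>
    rw [rep_single, Matrix.mul_smul, Matrix.smul_mul, ← h2, Matrix.mul_assoc, hPQ, Matrix.mul_one]
    ext r s
    change τ (c • (LinearMap.toMatrix' (ρ g) r s)) = c • τ (LinearMap.toMatrix' (ρ g) r s)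
    rw [Algebra.smul_def, map_mul, τ.commutes, ← Algebra.smul_def]

/-- **the determinant formula for characters with values in `K`** -/
theorem exists_det {ι : Type*} [Fintype ι] [DecidableEq ι] (χ : ι → G → ℂ) (hχ : ∀ i, IsCharacter G (χ i))
    (hval : ∀ i g, ∃ k : K, algebraMap K ℂ k = χ i g) {e : MonoidAlgebra K G} (he : e * e = e) {m : ι → ℕ}
    (hm : ∀ i, ev (χ i) e = m i) {N : Type*} [Fintype N] [DecidableEq N]
    (hN : Fintype.card N = ∑ i, m i ^ 2) (a : N → MonoidAlgebra K G) (ha : ∀ j, e * a j = a j)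
    (ha' : ∀ j, a j * e = a j) :
    ∃ δ : K, ∃ s : ℤˣ, ∀ w : ι → ℂ, (Matrix.of fun j l => ∑ i, w i * ev (χ i) (a j * a l)).det =
      (s : ℤ) * algebraMap K ℂ δ ^ 2 * ∏ i, w i ^ (m i ^ 2) := by
  choose n ρ hρ using hχ
  have hval' : ∀ i x, ∃ k : K, algebraMap K ℂ k = (rep K (ρ i) x).trace := by
    intro i x
    choose v hv using hval i
    refine ⟨∑ g, x.coeff g * v g, ?_⟩
    rw [trace_rep, ev_apply, map_sum]
    refine Finset.sum_congr rfl fun g _ => ?_
    rw [map_mul, hv, hρ]
  obtain ⟨δ, s, h⟩ := core_mem (fun i => rep K (ρ i)) (fun i => stable_rep (ρ i) fun g => by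
    rw [hρ]
    exact hval i g) hval' he (m := m) (fun i => by rw [trace_rep, hρ, hm]) hN a ha ha'
  refine ⟨δ, s, fun w => ?_⟩
  rw [← h w]
  congr 1
  ext j l
  rw [of_apply, of_apply]
  refine Finset.sum_congr rfl fun i _ => ?_
  rw [trace_rep, hρ]

end Group

end Cfsg.Agent.H162.KS
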