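import Cfsg.Agent.H162.KS.Desc
import Cfsg.Agent.H690.KS.Lat
import Cfsg.Agent.H703.KS.Corner
import Cfsg.Agent.Blocks.Basic

/-!
# S4577, parity lemma: the Gram determinant of the corner (helper162)

`O ⊆ K` with `K^× = π^ℤ O^×`, `e ∈ O[G]` an idempotent, `m χ` the value of `χ` at `e`, `χ` with values in `K` whenever
`m χ ≠ 0`.  Then `d² ∏ (χ(1)/|G|)^((m χ)²)` is a unit of `O` for some `d ∈ K` (`exists_unit`): the form
`(x, y) ↦` coefficient of `1` in `x y` on `e K[G] e` has the `O`-lattice generated by the `e g e` as its own dual.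
-/

set_option autoImplicit false

open Matrix Cfsg

namespace Cfsg.Agent.H162.KS

open Cfsg.Agent.Characters Cfsg.Agent.H703.KS Cfsg.Agent.Blocks.Central

universe u

section

variable {K : Type*} [Field K] [Algebra K ℂ] {G : Type u} [Group G] [Fintype G]

theorem ev_eq_chExt (χ : G → ℂ) (x : MonoidAlgebra K G) :
    ev χ x = chExt χ (MonoidAlgebra.mapRingHom G (algebraMap K ℂ) x) := by
  rw [chExt_apply, ev_apply]
  refine Finset.sum_congr rfl fun g _ => ?_
  simp

/-- the coefficient of `1` -/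
theorem coeff_one_eq_ev [Fintype (IrrCharacter G)] (x : MonoidAlgebra K G) :
    algebraMap K ℂ (x.coeff 1) = ∑ χ : IrrCharacter G, (χ : G → ℂ) 1 / (Nat.card G : ℂ) * ev (χ : G → ℂ) x := by
  have h1 := coeff_one_eq_chExt (MonoidAlgebra.mapRingHom G (algebraMap K ℂ) x)
  simp_rw [← ev_eq_chExt] at h1
  rw [← h1]
  simp

/-- a character vanishing at the idempotent `e` vanishes on `e K[G]` -/
theorem ev_eq_zero {χ : G → ℂ} (hχ : IsCharacter G χ) {e : MonoidAlgebra K G} (he : e * e = e) (h0 : ev χ e = 0)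
    {x : MonoidAlgebra K G} (hx : e * x = x) : ev χ x = 0 := by
  obtain ⟨n, ρ, rfl⟩ := hχ
  have h1 : (rep K ρ e).trace = ((0 : ℕ) : ℂ) := by rw [trace_rep, h0, Nat.cast_zero]
  obtain ⟨B, C, -, h3⟩ := exists_factor (rep K ρ e) (by rw [← map_mul, he]) h1
  have h4 : rep K ρ e = 0 := by
    rw [← h3]
    ext i j
    rw [mul_apply]
    simp
  rw [← trace_rep, ← hx, map_mul, h4, Matrix.zero_mul, trace_zero]

omit [Algebra K ℂ] in
theorem coeff_mul_mem {O : Subring K} {x y : MonoidAlgebra K G} (hx : ∀ g, x.coeff g ∈ O) (hy : ∀ g, y.coeff g ∈ O)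
    (g : G) : (x * y).coeff g ∈ O := by
  rw [coeff_mul_eq_sum]
  exact O.sum_mem fun h _ => O.mul_mem (hx _) (hy _)

omit [Algebra K ℂ] [Fintype G] in
theorem coeff_single_mem {O : Subring K} (h g : G) : (MonoidAlgebra.single h (1 : K)).coeff g ∈ O := by
  classical
  rw [MonoidAlgebra.coeff_single, Finsupp.single_apply]
  split_ifs
  · exact O.one_mem
  · exact O.zero_mem

omit [Algebra K ℂ] in
/-- an element of the corner in terms of the `e g e` -/
theorem eq_sum_cproj {e : MonoidAlgebra K G} {x : MonoidAlgebra K G} (h1 : e * x = x) (h2 : x * e = x) :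
    x = ∑ g, x.coeff g • cproj e (MonoidAlgebra.single g 1) := by
  have h3 : x = ∑ g, x.coeff g • MonoidAlgebra.single g (1 : K) := by
    have h4 := (gbasis : Module.Basis G K (MonoidAlgebra K G)).sum_repr x
    simp_rw [gbasis_apply] at h4
    exact h4.symm
  have h4 : cproj e x = x := by rw [cproj_apply, h2, h1]
  conv_lhs => rw [← h4, h3, map_sum]
  simp_rw [map_smul]

/-- the Gram matrix of the coefficient of `1` on a basis of the corner -/
theorem exists_sq_gram {O : Subring K} {π : K} (hπ : π ∈ O) (hπ' : π⁻¹ ∉ O)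
    (hfac : ∀ z : K, z ≠ 0 → ∃ (n : ℤ) (u : K), u ∈ O ∧ u⁻¹ ∈ O ∧ z = π ^ n * u) {e : MonoidAlgebra K G} (he : e * e = e)
    (heO : ∀ g, e.coeff g ∈ O) {N : Type*} [Fintype N] [DecidableEq N]
    (b : Module.Basis N K (LinearMap.range (cproj e))) :
    (Matrix.of fun j l => ((b j : MonoidAlgebra K G) * (b l : MonoidAlgebra K G)).coeff 1).det ≠ 0 ∧
    ∃ d : K, d ≠ 0 ∧
      d ^ 2 * (Matrix.of fun j l => ((b j : MonoidAlgebra K G) * (b l : MonoidAlgebra K G)).coeff 1).det ∈ O ∧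
      (d ^ 2 * (Matrix.of fun j l => ((b j : MonoidAlgebra K G) * (b l : MonoidAlgebra K G)).coeff 1).det)⁻¹ ∈ O := by
  set S : Matrix N N K := Matrix.of fun j l => ((b j : MonoidAlgebra K G) * (b l : MonoidAlgebra K G)).coeff 1 with hSdef
  have hT : ∀ x y : LinearMap.range (cproj e),
      ((x : MonoidAlgebra K G) * (y : MonoidAlgebra K G)).coeff 1 = b.equivFun x ⬝ᵥ S.mulVec (b.equivFun y) := by
    intro x y
    have h1 : (x : MonoidAlgebra K G) = ∑ j, b.equivFun x j • (b j : MonoidAlgebra K G) := by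
      conv_lhs => rw [← b.sum_equivFun x]
      rw [AddSubmonoidClass.coe_finsetSum]
      rfl
    have h2 : (y : MonoidAlgebra K G) = ∑ j, b.equivFun y j • (b j : MonoidAlgebra K G) := by
      conv_lhs => rw [← b.sum_equivFun y]
      rw [AddSubmonoidClass.coe_finsetSum]
      rfl
    rw [h1, h2, Finset.sum_mul_sum, MonoidAlgebra.coeff_sum, Finsupp.finsetSum_apply]
    simp only [dotProduct, mulVec]
    refine Finset.sum_congr rfl fun j _ => ?_
    rw [MonoidAlgebra.coeff_sum, Finsupp.finsetSum_apply, Finset.mul_sum]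
    refine Finset.sum_congr rfl fun l _ => ?_
    rw [smul_mul_smul_comm, MonoidAlgebra.coeff_smul, Finsupp.smul_apply, smul_eq_mul, hSdef, of_apply]
    ring
  let v : G → N → K := fun g => b.equivFun ⟨cproj e (MonoidAlgebra.single g 1), LinearMap.mem_range_self _ _⟩
  have hmem : ∀ x : LinearMap.range (cproj e), e * (x : MonoidAlgebra K G) = x ∧ (x : MonoidAlgebra K G) * e = x :=
    fun x => cproj_of_mem he x.2
  -- `T(x, e g e)`
  have hTv : ∀ (x : LinearMap.range (cproj e)) (g : G),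
      b.equivFun x ⬝ᵥ S.mulVec (v g) = (x : MonoidAlgebra K G).coeff g⁻¹ := by
    intro x g
    rw [← hT]
    change ((x : MonoidAlgebra K G) * (e * (MonoidAlgebra.single g 1 * e))).coeff 1 = _
    rw [← mul_assoc, (hmem x).2, ← mul_assoc, coeff_one_mul_comm, ← mul_assoc, (hmem x).1, coeff_mul_single_one']
  have hTv' : ∀ (x : LinearMap.range (cproj e)) (g : G),
      v g ⬝ᵥ S.mulVec (b.equivFun x) = (x : MonoidAlgebra K G).coeff g⁻¹ := by
    intro x g
    rw [← hT, coeff_one_mul_comm, hT]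
    exact hTv x g
  have hsum : ∀ x : LinearMap.range (cproj e), b.equivFun x = ∑ g, (x : MonoidAlgebra K G).coeff g • v g := by
    intro x
    have h1 : x = ∑ g, (x : MonoidAlgebra K G).coeff g •
        (⟨cproj e (MonoidAlgebra.single g 1), LinearMap.mem_range_self _ _⟩ : LinearMap.range (cproj e)) := by
      apply Subtype.ext
      rw [AddSubmonoidClass.coe_finsetSum]
      exact eq_sum_cproj (hmem x).1 (hmem x).2
    conv_lhs => rw [h1, map_sum]
    simp_rw [map_smul]
    rfl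
  have hdet : S.det ≠ 0 := by
    intro h0
    obtain ⟨β, hβ, hβ0⟩ := exists_mulVec_eq_zero_iff.2 h0
    apply hβ
    have h1 : b.equivFun.symm β = 0 := by
      apply Subtype.ext
      apply MonoidAlgebra.coeff_injective
      ext g
      have h2 := hTv' (b.equivFun.symm β) g⁻¹
      rw [LinearEquiv.apply_symm_apply, hβ0, dotProduct_zero, inv_inv] at h2
      exact h2.symm
    have h2 := congrArg b.equivFun h1
    rwa [LinearEquiv.apply_symm_apply, map_zero] at h2
  refine ⟨hdet, H690.KS.exists_sq hπ hπ' hfac S hdet v ?_ ?_ ?_⟩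
  · intro g h
    rw [hTv]
    change (e * (MonoidAlgebra.single g 1 * e)).coeff h⁻¹ ∈ O
    exact coeff_mul_mem heO (coeff_mul_mem (coeff_single_mem g) heO) _
  · intro α hα
    have h1 : ∀ g, (b.equivFun.symm α : MonoidAlgebra K G).coeff g ∈ O := by
      intro g
      have h2 := hα g⁻¹
      have h3 := hTv (b.equivFun.symm α) g⁻¹
      rw [LinearEquiv.apply_symm_apply, inv_inv] at h3
      rwa [h3] at h2
    have h2 := hsum (b.equivFun.symm α)
    rw [LinearEquiv.apply_symm_apply] at h2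
    rw [h2]
    refine Submodule.sum_mem _ fun g _ => ?_
    have h3 : (b.equivFun.symm α : MonoidAlgebra K G).coeff g • v g =
        (⟨_, h1 g⟩ : O) • v g := rfl
    rw [h3]
    exact Submodule.smul_mem _ _ (Submodule.subset_span ⟨g, rfl⟩)
  · rw [eq_top_iff]
    intro α _
    have h2 := hsum (b.equivFun.symm α)
    rw [LinearEquiv.apply_symm_apply] at h2
    rw [h2]
    exact Submodule.sum_mem _ fun g _ => Submodule.smul_mem _ _ (Submodule.subset_span ⟨g, rfl⟩)

/-- **the corner of an `O`-integral idempotent** -/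
theorem exists_unit [Fintype (IrrCharacter G)] {O : Subring K} {π : K} (hπ : π ∈ O) (hπ' : π⁻¹ ∉ O)
    (hfac : ∀ z : K, z ≠ 0 → ∃ (n : ℤ) (u : K), u ∈ O ∧ u⁻¹ ∈ O ∧ z = π ^ n * u) {e : MonoidAlgebra K G} (he : e * e = e)
    (heO : ∀ g, e.coeff g ∈ O) (m : IrrCharacter G → ℕ) (hm : ∀ χ : IrrCharacter G, ev (χ : G → ℂ) e = m χ)
    (hval : ∀ χ : IrrCharacter G, m χ ≠ 0 → ∀ g, ∃ k : K, algebraMap K ℂ k = (χ : G → ℂ) g) :
    ∃ d : K, d ≠ 0 ∧
      (d ^ 2 * ∏ χ : IrrCharacter G, ((charDegree (χ : G → ℂ) : K) / (Nat.card G : K)) ^ (m χ ^ 2)) ∈ O ∧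
      (d ^ 2 * ∏ χ : IrrCharacter G, ((charDegree (χ : G → ℂ) : K) / (Nat.card G : K)) ^ (m χ ^ 2))⁻¹ ∈ O := by
  classical
  set P : K := ∏ χ : IrrCharacter G, ((charDegree (χ : G → ℂ) : K) / (Nat.card G : K)) ^ (m χ ^ 2) with hP
  let b := Module.finBasis K (LinearMap.range (cproj e))
  have hch : ∀ χ : IrrCharacter G, IsCharacter G (χ : G → ℂ) := by
    intro χ
    obtain ⟨n, ρ, _, hρ⟩ := χ.2
    exact ⟨n, ρ, hρ⟩
  have hN : Fintype.card (Fin (Module.finrank K (LinearMap.range (cproj e)))) =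
      ∑ i : {χ : IrrCharacter G // m χ ≠ 0}, m i ^ 2 := by
    rw [Fintype.card_fin, finrank_corner he m fun χ => hm χ]
    rw [← Finset.sum_subtype (Finset.univ.filter fun χ => m χ ≠ 0) (by simp) fun χ => m χ ^ 2]
    refine (Finset.sum_filter_of_ne fun χ _ h => ?_).symm
    exact fun h0 => h (by rw [h0, zero_pow two_ne_zero])
  obtain ⟨δ, s, hδ⟩ := exists_det (fun i : {χ : IrrCharacter G // m χ ≠ 0} => (i.1 : G → ℂ)) (fun i => hch i.1)
    (fun i => hval i.1 i.2) he (fun i => hm i.1) hN (fun j => (b j : MonoidAlgebra K G))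
    (fun j => (cproj_of_mem he (b j).2).1) (fun j => (cproj_of_mem he (b j).2).2)
  obtain ⟨h0, d, hd, h1, h2⟩ := exists_sq_gram hπ hπ' hfac he heO b
  have hcast : ∀ χ : IrrCharacter G, (χ : G → ℂ) 1 / (Nat.card G : ℂ) =
      algebraMap K ℂ ((charDegree (χ : G → ℂ) : K) / (Nat.card G : K)) := by
    intro χ
    rw [map_div₀, map_natCast, map_natCast, Blocks.Basic.irr_one_eq_charDegree χ.2]
  have h3 : (Matrix.of fun j l => ((b j : MonoidAlgebra K G) * (b l : MonoidAlgebra K G)).coeff 1).det =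
      ((s : ℤ) : K) * δ ^ 2 * P := by
    apply (algebraMap K ℂ).injective
    have h4 := hδ fun i => (i.1 : G → ℂ) 1 / (Nat.card G : ℂ)
    have h5 : (Matrix.of fun j l => ∑ i : {χ : IrrCharacter G // m χ ≠ 0}, (i.1 : G → ℂ) 1 / (Nat.card G : ℂ) *
        ev (i.1 : G → ℂ) ((b j : MonoidAlgebra K G) * (b l : MonoidAlgebra K G))) =
        (Matrix.of fun j l => ((b j : MonoidAlgebra K G) * (b l : MonoidAlgebra K G)).coeff 1).map (algebraMap K ℂ) := by
      ext j l
      rw [of_apply, map_apply, of_apply, coeff_one_eq_ev]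
      rw [← Finset.sum_subtype (Finset.univ.filter fun χ => m χ ≠ 0) (by simp) fun χ : IrrCharacter G =>
        (χ : G → ℂ) 1 / (Nat.card G : ℂ) * ev (χ : G → ℂ) ((b j : MonoidAlgebra K G) * (b l : MonoidAlgebra K G))]
      refine Finset.sum_filter_of_ne fun χ _ h => ?_
      intro h0
      apply h
      rw [ev_eq_zero (hch χ) he (by rw [hm, h0, Nat.cast_zero])
        (by rw [← mul_assoc, (cproj_of_mem he (b j).2).1]), mul_zero]
    rw [h5] at h4
    rw [RingHom.map_det, RingHom.mapMatrix_apply, h4, map_mul, map_mul, map_pow, map_intCast, hP, map_prod]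
    congr 1
    rw [← Finset.prod_subtype (Finset.univ.filter fun χ => m χ ≠ 0) (by simp) fun χ : IrrCharacter G =>
        ((χ : G → ℂ) 1 / (Nat.card G : ℂ)) ^ (m χ ^ 2)]
    rw [Finset.prod_filter_of_ne]
    · refine Finset.prod_congr rfl fun χ _ => ?_
      rw [map_pow, hcast]
    · intro χ _ h h0
      exact h (by rw [h0, zero_pow two_ne_zero, pow_zero])
  rw [h3] at h0 h1 h2
  have hδ0 : δ ≠ 0 := by
    rintro rfl
    exact h0 (by ring)
  have hs : ((s : ℤ) : K) * ((s : ℤ) : K) = 1 := by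
    rw [← Int.cast_mul, ← Units.val_mul, ← sq, Int.units_sq]
    simp
  have hsO : ((s : ℤ) : K) ∈ O := intCast_mem O _
  refine ⟨d * δ, mul_ne_zero hd hδ0, ?_, ?_⟩
  · have h4 : (d * δ) ^ 2 * P = ((s : ℤ) : K) * (d ^ 2 * (((s : ℤ) : K) * δ ^ 2 * P)) := by
      calc (d * δ) ^ 2 * P = 1 * ((d * δ) ^ 2 * P) := (one_mul _).symm
        _ = _ := by rw [← hs]; ring
    rw [h4]
    exact O.mul_mem hsO h1
  · have h4 : (d * δ) ^ 2 * P = ((s : ℤ) : K) * (d ^ 2 * (((s : ℤ) : K) * δ ^ 2 * P)) := by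
      calc (d * δ) ^ 2 * P = 1 * ((d * δ) ^ 2 * P) := (one_mul _).symm
        _ = _ := by rw [← hs]; ring
    have h5 : ((s : ℤ) : K)⁻¹ = ((s : ℤ) : K) := inv_eq_of_mul_eq_one_left hs
    rw [h4, mul_inv, h5]
    exact O.mul_mem hsO h2

end

end Cfsg.Agent.H162.KS
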